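import Cfsg.Agent.Lib.Helper29.LW.Invert

/-!
# Project LW (S0746): package [ABS2]

Two involutions acting fixed-point-freely on `F` modulo `P`: their product centralizes `F`
modulo `P`.
-/

set_option autoImplicit false

namespace Cfsg.Agent.Lib.Helper29.LW

open Cfsg.Agent.Lib.Helper75.LW

universe u

/-- an involution normalizing `F` and `P` (`P` normal in `F`), fixed-point-free on `F` modulo `P`,
inverts `F` modulo `P`. -/
theorem inv_mod_of_fpf {Γ : Type*} [Group Γ] (F P : Subgroup Γ) [Finite F] (b : Γ)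
    (hPF : P ≤ F) (hnorm : ∀ f ∈ F, ∀ e ∈ P, f * e * f⁻¹ ∈ P) (hb : b * b = 1)
    (hbF : ∀ f ∈ F, b * f * b⁻¹ ∈ F) (hbP : ∀ e ∈ P, b * e * b⁻¹ ∈ P)
    (hfix : ∀ f ∈ F, f⁻¹ * (b * f * b⁻¹) ∈ P → f ∈ P) :
    ∀ f ∈ F, f * (b * f * b⁻¹) ∈ P := by
  have hbinv : b⁻¹ = b := inv_eq_of_mul_eq_one_left hb
  haveI hN : (P.subgroupOf F).Normal := by
    constructor
    intro e he f
    rw [Subgroup.mem_subgroupOf] at he ⊢
    have := hnorm f f.2 e he
    simpa using this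
  have hle : P.subgroupOf F ≤ (P.subgroupOf F).comap (conjHomLW F b hbF) := by
    intro e he
    rw [Subgroup.mem_comap, Subgroup.mem_subgroupOf, conjHomLW_coe]
    exact hbP e (Subgroup.mem_subgroupOf.mp he)
  let β : F ⧸ P.subgroupOf F →* F ⧸ P.subgroupOf F :=
    QuotientGroup.map (P.subgroupOf F) (P.subgroupOf F) (conjHomLW F b hbF) hle
  have hβ : ∀ f : F, β (QuotientGroup.mk f) = QuotientGroup.mk (conjHomLW F b hbF f) := by
    intro f
    exact QuotientGroup.map_mk _ _ _ hle f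
  have h2 : ∀ q, β (β q) = q := by
    intro q
    induction q using QuotientGroup.induction_on with
    | H f =>
      rw [hβ, hβ]
      congr 1
      apply Subtype.ext
      rw [conjHomLW_coe, conjHomLW_coe, hbinv]
      calc b * (b * (f : Γ) * b) * b = (b * b) * (f : Γ) * (b * b) := by group
        _ = (f : Γ) := by rw [hb, one_mul, mul_one]
  have hfix' : ∀ q, β q = q → q = 1 := by
    intro q hq
    induction q using QuotientGroup.induction_on with
    | H f =>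
      rw [hβ] at hq
      have h1 : (f : F)⁻¹ * conjHomLW F b hbF f ∈ P.subgroupOf F :=
        QuotientGroup.eq.mp hq.symm
      rw [Subgroup.mem_subgroupOf] at h1
      have h3 : ((f : F) : Γ)⁻¹ * (b * (f : Γ) * b⁻¹) ∈ P := by
        simpa [conjHomLW_coe] using h1
      have h4 := hfix f f.2 h3
      exact (QuotientGroup.eq_one_iff f).mpr (Subgroup.mem_subgroupOf.mpr h4)
  intro f hf
  have key := inv_of_fpf_hom β h2 hfix' (QuotientGroup.mk (⟨f, hf⟩ : F))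
  rw [hβ] at key
  have key2 : (QuotientGroup.mk (conjHomLW F b hbF ⟨f, hf⟩) : F ⧸ P.subgroupOf F)
      = QuotientGroup.mk ((⟨f, hf⟩ : F)⁻¹) := by
    rw [key]; rfl
  have h1 : ((⟨f, hf⟩ : F)⁻¹)⁻¹ * conjHomLW F b hbF ⟨f, hf⟩ ∈ P.subgroupOf F :=
    QuotientGroup.eq.mp key2.symm
  rw [Subgroup.mem_subgroupOf] at h1
  simpa [conjHomLW_coe] using h1

theorem pkgAbs2 : PkgAbs2.{u} := by
  intro Γ _ F P _ b b' hPF hnorm hb hb' hbF hb'F hbP hb'P hfix hfix' f hf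
  have hI := inv_mod_of_fpf F P b hPF hnorm hb hbF hbP hfix
  have hI' := inv_mod_of_fpf F P b' hPF hnorm hb' hb'F hb'P hfix'
  have hg : b' * f * b'⁻¹ ∈ F := hb'F f hf
  have e1 : f * (b' * f * b'⁻¹) ∈ P := hI' f hf
  have e2 : (b' * f * b'⁻¹) * (b * (b' * f * b'⁻¹) * b⁻¹) ∈ P := hI _ hg
  have e3 : f⁻¹ * (f * (b' * f * b'⁻¹))⁻¹ * (f⁻¹)⁻¹ ∈ P :=
    hnorm f⁻¹ (F.inv_mem hf) _ (P.inv_mem e1)
  have : f⁻¹ * ((b * b') * f * (b * b')⁻¹)
      = (f⁻¹ * (f * (b' * f * b'⁻¹))⁻¹ * (f⁻¹)⁻¹) *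
        ((b' * f * b'⁻¹) * (b * (b' * f * b'⁻¹) * b⁻¹)) := by
    group
  rw [this]
  exact P.mul_mem e3 e2

end Cfsg.Agent.Lib.Helper29.LW
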