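import Cfsg.Agent.Lib.Helper75.LW.Defs

/-!
# Project LW (S0746): package [ABS3]

An element `d` with `d ^ 9 = 1` centralizing `F` modulo a subgroup `P` of order `4`:
every coset of `P` contains a fixed element, so `|F| ≤ 4 |C_F(d)|`.
-/

set_option autoImplicit false

namespace Cfsg.Agent.Lib.Helper29.LW

open Cfsg.Agent.Lib.Helper75.LW

universe u

theorem pkgAbs3 : PkgAbs3.{u} := by
  intro Γ _ F P _ d hPF hP4 hd9 hdF hdP hcent
  classical
  haveI : Finite P := Nat.finite_of_card_ne_zero (by rw [hP4]; norm_num)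
  haveI : Fintype P := Fintype.ofFinite P
  have hcardP : Fintype.card P = 4 := by rw [← Nat.card_eq_fintype_card, hP4]
  -- every coset `f P` contains a `d`-fixed element
  have hcoset : ∀ f ∈ F, ∃ e ∈ P, d * (f * e) * d⁻¹ = f * e := by
    intro f hf
    let φ : P → P := fun e => ⟨f⁻¹ * (d * (f * e) * d⁻¹), by
      have h1 : f⁻¹ * (d * f * d⁻¹) ∈ P := hcent f hf
      have h2 : d * (e : Γ) * d⁻¹ ∈ P := hdP e e.2
      have : f⁻¹ * (d * (f * e) * d⁻¹) = (f⁻¹ * (d * f * d⁻¹)) * (d * (e : Γ) * d⁻¹) := by group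
      rw [this]
      exact P.mul_mem h1 h2⟩
    have hφ : ∀ e : P, ((φ e : P) : Γ) = f⁻¹ * (d * (f * e) * d⁻¹) := fun e => rfl
    have hinj : Function.Injective φ := by
      intro e e' h
      have h1 := congrArg Subtype.val h
      rw [hφ, hφ] at h1
      apply Subtype.ext
      have h2 : d * (f * (e : Γ)) * d⁻¹ = d * (f * (e' : Γ)) * d⁻¹ := mul_left_cancel h1
      have h3 : f * (e : Γ) = f * (e' : Γ) := by
        have := mul_right_cancel h2
        exact mul_left_cancel this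
      exact mul_left_cancel h3
    have hbij : Function.Bijective φ := Finite.injective_iff_bijective.mp hinj
    let σ : Equiv.Perm P := Equiv.ofBijective φ hbij
    have hiter : ∀ (k : ℕ) (e : P), (((σ ^ k) e : P) : Γ) = f⁻¹ * (d ^ k * (f * e) * (d ^ k)⁻¹) := by
      intro k
      induction k with
      | zero => intro e; simp
      | succ k ih =>
        intro e
        rw [pow_succ', Equiv.Perm.mul_apply]
        have : ((σ ((σ ^ k) e) : P) : Γ) = f⁻¹ * (d * (f * ((σ ^ k) e : P)) * d⁻¹) := rfl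
        rw [this, ih e, pow_succ']
        group
    have hσ : σ ^ 3 ^ 2 = 1 := by
      ext e
      have h := hiter 9 e
      rw [hd9] at h
      rw [show (3 : ℕ) ^ 2 = 9 by norm_num, h]
      simp
    haveI : Fact (Nat.Prime 3) := ⟨by norm_num⟩
    obtain ⟨e, he⟩ := Equiv.Perm.exists_fixed_point_of_prime (p := 3) (n := 2)
      (by rw [hcardP]; norm_num) hσ
    refine ⟨e, e.2, ?_⟩
    have h1 : ((σ e : P) : Γ) = f⁻¹ * (d * (f * e) * d⁻¹) := rfl
    rw [he] at h1
    calc d * (f * (e : Γ)) * d⁻¹ = f * (f⁻¹ * (d * (f * e) * d⁻¹)) := by group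
      _ = f * e := by rw [← h1]
  -- the multiplication map `C_F(d) × P → F` is surjective
  let C := {f : F // d * (f : Γ) * d⁻¹ = f}
  let m : C × P → F := fun x => ⟨(x.1.1 : Γ) * (x.2 : Γ), F.mul_mem x.1.1.2 (hPF x.2.2)⟩
  have hsurj : Function.Surjective m := by
    intro f
    obtain ⟨e, he, hfix⟩ := hcoset f f.2
    refine ⟨(⟨⟨(f : Γ) * e, F.mul_mem f.2 (hPF he)⟩, hfix⟩, ⟨e⁻¹, P.inv_mem he⟩), ?_⟩
    apply Subtype.ext
    show (f : Γ) * e * e⁻¹ = f
    group
  have hle : Nat.card F ≤ Nat.card (C × P) := Nat.card_le_card_of_surjective m hsurj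
  rw [Nat.card_prod, hP4] at hle
  calc Nat.card F ≤ Nat.card C * 4 := hle
    _ = 4 * Nat.card {f : F // d * (f : Γ) * d⁻¹ = f} := by rw [mul_comm]

end Cfsg.Agent.Lib.Helper29.LW
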