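import Cfsg.Agent.Lib.Helper75.LW.Defs

/-!
# Project LW (S0746): package [INVERT]

A fixed-point-free involutory automorphism of a finite group inverts every element.
-/

set_option autoImplicit false

namespace Cfsg.Agent.Lib.Helper29.LW

open Cfsg.Agent.Lib.Helper75.LW

universe u

/-- an involutory endomorphism of a finite group without nontrivial fixed points inverts. -/
theorem inv_of_fpf_hom {Q : Type*} [Group Q] [Finite Q] (β : Q →* Q) (h2 : ∀ q, β (β q) = q)
    (hfix : ∀ q, β q = q → q = 1) (q : Q) : β q = q⁻¹ := by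
  have hinj : Function.Injective (fun q : Q => q⁻¹ * β q) := by
    intro q r h
    have h' : q⁻¹ * β q = r⁻¹ * β r := h
    have h1 : β q = q * (r⁻¹ * β r) := by rw [← h', mul_inv_cancel_left]
    have h3 : β (r * q⁻¹) = r * q⁻¹ := by
      rw [map_mul, map_inv, h1]
      group
    have h4 := hfix _ h3
    exact (mul_inv_eq_one.mp h4).symm
  obtain ⟨r, hr⟩ := (Finite.injective_iff_surjective.mp hinj) q
  have hr' : r⁻¹ * β r = q := hr
  rw [← hr', map_mul, map_inv, h2]
  group

/-- conjugation by a normalizing element as an endomorphism of a subgroup. -/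
def conjHomLW {Γ : Type*} [Group Γ] (F : Subgroup Γ) (a : Γ)
    (hn : ∀ f ∈ F, a * f * a⁻¹ ∈ F) : F →* F where
  toFun f := ⟨a * f * a⁻¹, hn f f.2⟩
  map_one' := by
    apply Subtype.ext
    simp
  map_mul' f g := by
    apply Subtype.ext
    simp only [Subgroup.coe_mul]
    group

theorem conjHomLW_coe {Γ : Type*} [Group Γ] (F : Subgroup Γ) (a : Γ)
    (hn : ∀ f ∈ F, a * f * a⁻¹ ∈ F) (f : F) :
    ((conjHomLW F a hn f : F) : Γ) = a * f * a⁻¹ := rfl

theorem pkgInvert : PkgInvert.{u} := by
  intro Γ _ F _ a ha hn hfix f hf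
  have hainv : a⁻¹ = a := inv_eq_of_mul_eq_one_left ha
  have key := inv_of_fpf_hom (conjHomLW F a hn)
    (by
      intro q
      apply Subtype.ext
      rw [conjHomLW_coe, conjHomLW_coe, hainv]
      calc a * (a * (q : Γ) * a) * a = (a * a) * (q : Γ) * (a * a) := by group
        _ = (q : Γ) := by rw [ha, one_mul, mul_one])
    (by
      intro q hq
      have h1 : a * (q : Γ) * a⁻¹ = q := by
        have := congrArg Subtype.val hq
        rwa [conjHomLW_coe] at this
      apply Subtype.ext
      exact hfix q q.2 h1)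
    ⟨f, hf⟩
  have := congrArg Subtype.val key
  rwa [conjHomLW_coe] at this

end Cfsg.Agent.Lib.Helper29.LW
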