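import Cfsg.Agent.Lib.Helper75.LW.Defs
import Cfsg.Agent.S0736

/-!
# Project LW (S0746): package [MAIN]

The induction: `k`-homogeneous with `4 ≤ 2k ≤ n` implies `(k-1)`-transitive, given that the rigid
situation does not occur.
-/

set_option autoImplicit false

namespace Cfsg.Agent.Lib.Helper29.LW

open Cfsg.Agent.Lib.Helper75.LW

universe u

/-- `k`-homogeneity goes down (Livingstone–Wagner, via S0736). -/
theorem hh_pred (hBrH : PkgBrH.{u}) {α : Type u} [Fintype α] [DecidableEq α]
    (G : Subgroup (Equiv.Perm α)) (k : ℕ) (hk : 2 ≤ k) (hkn : 2 * k ≤ Fintype.card α)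
    (h : HH G k) : HH G (k - 1) := by
  have h1 : MulAction.IsPretransitive G (Set.powersetCard α k) := (hBrH G k).mpr h
  have h2 := Cfsg.Agent.S0736.result G hk h1 (by
    intro q _ hqk
    have hq : q ≤ k := Nat.le_of_dvd (by omega) hqk
    omega)
  exact (hBrH G (k - 1)).mp h2

theorem ht_one_of_hh_one {α : Type u} [Fintype α] [DecidableEq α]
    (G : Subgroup (Equiv.Perm α)) (h : HH G 1) : HT G 1 := by
  intro x y
  obtain ⟨g, hg, hgs⟩ := h {x 0} {y 0} (Finset.card_singleton _) (Finset.card_singleton _)
  refine ⟨g, hg, fun i => ?_⟩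
  have hi : i = 0 := Subsingleton.elim _ _
  subst hi
  have := (hgs (x 0)).mp (Finset.mem_singleton_self _)
  exact Finset.mem_singleton.mp this

theorem pkgMain (hBrT : PkgBrT.{u}) (hBrH : PkgBrH.{u}) : PkgMain.{u} := by
  intro hRigid α _ _ G k hk
  induction k, hk using Nat.le_induction with
  | base =>
    intro hkn hH
    exact ht_one_of_hh_one G (hh_pred hBrH G 2 le_rfl hkn hH)
  | succ k hk ih =>
    intro hkn hH
    have hH1 : HH G k := hh_pred hBrH G (k + 1) (by omega) hkn hH
    have hT : HT G (k - 1) := ih (by omega) hH1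
    by_contra hnt
    exact hRigid G (k + 1)
      { k3 := by omega
        kn := hkn
        tr := by
          have : k + 1 - 2 = k - 1 := by omega
          rw [this]; exact hT
        ntr := hnt
        h1 := hH1
        h2 := hH }

end Cfsg.Agent.Lib.Helper29.LW
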