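import Cfsg.Agent.Lib.Helper75.LW.Defs
import Cfsg.Agent.S0744

/-!
# Project LW (S0746): package [R1]

In the rigid situation the pointwise stabiliser of a `(k-1)`-set is trivial.
-/

set_option autoImplicit false

namespace Cfsg.Agent.Lib.Helper29.LW

open Cfsg.Agent.Lib.Helper75.LW

universe u

/-- fixing subgroups of sets in the same `G`-orbit: one inequality of cardinalities. -/
theorem card_fixing_le {α : Type u} [Fintype α] [DecidableEq α] (G : Subgroup (Equiv.Perm α))
    (s s' : Finset α) (γ : Equiv.Perm α) (hγ : γ ∈ G) (h : ∀ a, a ∈ s ↔ γ a ∈ s') :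
    Nat.card (fixingSubgroup G (s : Set α)) ≤ Nat.card (fixingSubgroup G (s' : Set α)) := by
  let Γ : G := ⟨γ, hγ⟩
  let φ : fixingSubgroup G (s : Set α) → fixingSubgroup G (s' : Set α) := fun x =>
    ⟨Γ * x.1 * Γ⁻¹, by
      rw [mem_fixingSubgroup_iff]
      intro y hy
      have hy' : γ⁻¹ y ∈ s := by
        rw [h]
        simpa using hy
      have hx := (mem_fixingSubgroup_iff G).mp x.2 (γ⁻¹ y) hy'
      have hx' : ((x.1 : G) : Equiv.Perm α) (γ⁻¹ y) = γ⁻¹ y := hx
      show ((Γ * x.1 * Γ⁻¹ : G) : Equiv.Perm α) y = y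
      simp only [Subgroup.coe_mul, Subgroup.coe_inv, Equiv.Perm.mul_apply]
      show γ (((x.1 : G) : Equiv.Perm α) (γ⁻¹ y)) = y
      rw [hx']
      simp⟩
  apply Nat.card_le_card_of_injective φ
  intro x x' hxx
  have h1 : Γ * x.1 * Γ⁻¹ = Γ * x'.1 * Γ⁻¹ := congrArg Subtype.val hxx
  apply Subtype.ext
  exact mul_left_cancel (mul_right_cancel h1)

theorem card_fixing_eq {α : Type u} [Fintype α] [DecidableEq α] (G : Subgroup (Equiv.Perm α))
    (j : ℕ) (hH : HH G j) (s s' : Finset α) (hs : s.card = j) (hs' : s'.card = j) :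
    Nat.card (fixingSubgroup G (s : Set α)) = Nat.card (fixingSubgroup G (s' : Set α)) := by
  obtain ⟨γ, hγ, h⟩ := hH s s' hs hs'
  obtain ⟨γ', hγ', h'⟩ := hH s' s hs' hs
  exact le_antisymm (card_fixing_le G s s' γ hγ h) (card_fixing_le G s' s γ' hγ' h')

theorem pkgR1 (hBrT : PkgBrT.{u}) : PkgR1.{u} := by
  intro α _ _ G k hR
  by_contra hT
  unfold Triv at hT
  push_neg at hT
  obtain ⟨s₀, hs₀, g, hgG, hfix, hg1⟩ := hT
  have hk1 : 1 < k := by have := hR.k3; omega
  have hkn : k ≤ Fintype.card α := by have := hR.kn; omega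
  obtain ⟨s₁, -, hs₁⟩ := Finset.exists_subset_card_eq (s := (Finset.univ : Finset α))
    (n := k) (by rw [Finset.card_univ]; exact hkn)
  have hl : 1 < Nat.card (fixingSubgroup G (s₀ : Set α)) := by
    rw [Finite.one_lt_card_iff_nontrivial]
    refine ⟨⟨⟨⟨g, hgG⟩, ?_⟩, 1, ?_⟩⟩
    · rw [mem_fixingSubgroup_iff]
      intro y hy
      exact hfix y hy
    · intro h
      apply hg1
      have := congrArg (fun x : fixingSubgroup G (s₀ : Set α) => ((x.1 : G) : Equiv.Perm α)) h
      simpa using this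
  have hpre := Cfsg.Agent.S0744.result G hk1 hkn
    (Nat.card (fixingSubgroup G (s₀ : Set α))) (Nat.card (fixingSubgroup G (s₁ : Set α))) hl
    (fun s hs => card_fixing_eq G (k - 1) hR.h1 s s₀ hs hs₀)
    (fun s hs => card_fixing_eq G k hR.h2 s s₁ hs hs₁)
  exact hR.ntr ((hBrT G (k - 1)).mp hpre)

end Cfsg.Agent.Lib.Helper29.LW
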