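import Cfsg.Agent.Lib.Helper75.LW.Defs
import Cfsg.Agent.Lib.Helper46.LW.Ext
import Cfsg.Agent.Lib.Helper46.LW.Free
import Cfsg.Agent.S0708

/-!
# Project LW (S0746): package [SHARP]

There is no sharply `t`-transitive group (`t ≥ 4`) of degree at least `t + 8`: the pointwise
stabiliser of a `(t-4)`-set is sharply `4`-transitive on the remaining `≥ 12` points, against S0708.
-/

set_option autoImplicit false

namespace Cfsg.Agent.Lib.Helper29.LW

open Cfsg.Agent.Lib.Helper75.LW

universe u

theorem pkgSharp : PkgSharp.{u} := by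
  intro α _ _ G t ht hT hTriv hn
  classical
  obtain ⟨S, -, hS⟩ := Finset.exists_subset_card_eq (s := (Finset.univ : Finset α)) (n := t - 4)
    (by rw [Finset.card_univ]; omega)
  letI := Cfsg.Agent.Lib.Helper46.LW.complAction G S
  have hcard : Nat.card {a : α // a ∉ S} = Fintype.card α - (t - 4) := by
    rw [Cfsg.Agent.Lib.Helper46.LW.card_compl, hS]
  have hΛ : ∀ x : Fin 4 ↪ {a : α // a ∉ S},
      (S ∪ Finset.univ.image (fun i => (x i : α))).card = t := by
    intro x
    rw [Finset.card_union_of_disjoint, hS, Finset.card_image_of_injective, Finset.card_univ,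
      Fintype.card_fin]
    · omega
    · intro i j hij
      exact x.injective (Subtype.ext hij)
    · rw [Finset.disjoint_left]
      intro a ha ha'
      obtain ⟨i, -, rfl⟩ := Finset.mem_image.mp ha'
      exact (x i).2 ha
  have hsharp : ∀ x : Fin 4 ↪ {a : α // a ∉ S}, MulAction.stabilizer (PS G S) x = ⊥ := by
    intro x
    rw [eq_bot_iff]
    intro g hg
    rw [MulAction.mem_stabilizer_iff] at hg
    rw [Subgroup.mem_bot]
    apply Subtype.ext
    apply hTriv _ (hΛ x) (g : Equiv.Perm α) g.2.1
    intro a ha
    rcases Finset.mem_union.mp ha with ha | ha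
    · exact g.2.2 a ha
    · obtain ⟨i, -, rfl⟩ := Finset.mem_image.mp ha
      have := congrArg (fun f : Fin 4 ↪ {a : α // a ∉ S} => ((f i : {a : α // a ∉ S}) : α)) hg
      exact this
  have h4 : MulAction.IsMultiplyPretransitive (PS G S) {a : α // a ∉ S} 4 := by
    rw [MulAction.isMultiplyPretransitive_iff]
    intro x y
    let φ : α → α := fun a => if h : ∃ i, (x i : α) = a then (y (Classical.choose h) : α) else a
    have hφx : ∀ i, φ (x i : α) = (y i : α) := by
      intro i
      have h : ∃ j, (x j : α) = (x i : α) := ⟨i, rfl⟩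
      have hj : Classical.choose h = i := x.injective (Subtype.ext (Classical.choose_spec h))
      simp only [φ, dif_pos h, hj]
    have hφS : ∀ a ∈ S, φ a = a := by
      intro a ha
      have h : ¬ ∃ i, (x i : α) = a := by
        rintro ⟨i, rfl⟩
        exact (x i).2 ha
      simp only [φ, dif_neg h]
    have hinj : Set.InjOn φ ((S ∪ Finset.univ.image (fun i => (x i : α)) : Finset α) : Set α) := by
      intro a ha b hb hab
      rw [Finset.mem_coe, Finset.mem_union] at ha hb
      rcases ha with ha | ha <;> rcases hb with hb | hb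
      · rwa [hφS a ha, hφS b hb] at hab
      · obtain ⟨j, -, rfl⟩ := Finset.mem_image.mp hb
        rw [hφS a ha, hφx j] at hab
        exact absurd (hab ▸ ha) (y j).2
      · obtain ⟨i, -, rfl⟩ := Finset.mem_image.mp ha
        rw [hφx i, hφS b hb] at hab
        exact absurd (hab.symm ▸ hb) (y i).2
      · obtain ⟨i, -, rfl⟩ := Finset.mem_image.mp ha
        obtain ⟨j, -, rfl⟩ := Finset.mem_image.mp hb
        rw [hφx i, hφx j] at hab
        have : i = j := y.injective (Subtype.ext hab)
        rw [this]
    obtain ⟨g, hg, hgφ⟩ := Cfsg.Agent.Lib.Helper46.LW.pkgExt G t _ φ (hΛ x) hT hinj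
    have hgS : ∀ a ∈ S, g a = a := fun a ha => by
      rw [hgφ a (Finset.mem_union_left _ ha), hφS a ha]
    refine ⟨⟨g, hg, hgS⟩, ?_⟩
    ext i
    show g (x i : α) = (y i : α)
    rw [hgφ _ (Finset.mem_union_right _ (Finset.mem_image_of_mem _ (Finset.mem_univ i))), hφx]
  have hne : Nonempty (Fin 4 ↪ {a : α // a ∉ S}) := by
    apply Function.Embedding.nonempty_of_card_le
    rw [Fintype.card_fin, ← Nat.card_eq_fintype_card, hcard]
    omega
  have h11 := (Cfsg.Agent.S0708.result h4 hsharp hne).2.1
  rw [hcard] at h11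
  omega

end Cfsg.Agent.Lib.Helper29.LW
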